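import Cfsg.Agent.H596.T9.Psl
import Cfsg.Agent.H968.TwoM22Fact
import Cfsg.Agent.H417.DegMTwentyTwo
import Cfsg.Agent.H417.RecogMathieu

/-!
# `QRow` for `M₂₂` (helper596)
-/

set_option autoImplicit false

open Subgroup

namespace Cfsg.Agent.H596.T9

open Cfsg Cfsg.Agent.H629.T9
open Cfsg.Agent.SporadicA.GolayBase Cfsg.Agent.SporadicA.GolayPerm
open Cfsg.Agent.SporadicStructure.M24El Cfsg.Agent.H729.Trans Cfsg.Agent.H729.MData Cfsg.Agent.H729.Count
open Cfsg.Agent.H729.M24Deg Cfsg.Agent.H729.M22Deg Cfsg.Agent.H968.TwoM22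

universe u v

/-- `s ↦ t⁻¹`, `t ↦ s` -/
def cf : ℕ := 977010687306674799252722483707854112

/-- `s ↦ s⁻¹ t⁻¹`, `t ↦ s⁻¹ t` -/
def ch : ℕ := 958843648714828489079953580849542720

theorem ok_f : ok cf = true := by decide +kernel
theorem ok_h : ok ch = true := by decide +kernel

theorem cl_cent : (cl.all fun P => !(Nat.beq (pcomp P ct) (pcomp ct P)) ||
    Nat.beq (pcomp P (pcomp P P)) idP) = true := by decide +kernel

theorem rel_f1 : Nat.beq (pcomp (pcomp ct cf) cs) cf = true := by decide +kernel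
theorem rel_f2 : Nat.beq (pcomp cf ct) (pcomp cs cf) = true := by decide +kernel
theorem rel_h1 : Nat.beq (pcomp (pcomp (pcomp ct cs) ch) cs) ch = true := by decide +kernel
theorem rel_h2 : Nat.beq (pcomp (pcomp cs ch) ct) (pcomp ct ch) = true := by decide +kernel

/-- every element of `C(s)` is in the list -/
theorem exists_cl {s : Spor.M22} (hs : inc s = el cs) {z : Spor.M22} (hz : z * s = s * z) :
    ∃ P ∈ cl, ok P = true ∧ inc z = el P := by
  have hfin : Finite Spor.M22 := Nat.finite_of_card_ne_zero (by rw [card_M22]; norm_num)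
  have hP : ∀ P : {P : ℕ // P ∈ cl.toFinset}, ok P.1 = true ∧ (Nat.beq (papp P.1 23) 23 = true ∧
      (Nat.beq (papp P.1 0) 0 = true ∧ (Nat.beq (pcomp P.1 cs) (pcomp cs P.1) = true ∧
        Nat.beq (pcomp P.1 idP) P.1 = true))) := by
    intro P
    have h := List.all_eq_true.1 cl_ok P.1 (List.mem_toFinset.1 P.2)
    simpa only [Bool.and_eq_true] using h
  have hx : ∀ P : {P : ℕ // P ∈ cl.toFinset}, ∃ x : Spor.M22, inc x = el P.1 := fun P =>
    exists_el (hP P).1 (Nat.eq_of_beq_eq_true (hP P).2.1) (Nat.eq_of_beq_eq_true (hP P).2.2.1)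
  choose x hx using hx
  have hcomm : ∀ P, x P ∈ centralizer ({s} : Set Spor.M22) := by
    intro P
    rw [mem_centralizer_singleton_iff]
    apply inc_eq
    rw [map_mul, map_mul, hx, hs, ← el_pcomp (hP P).1 ok_s, ← el_pcomp ok_s (hP P).1, Nat.eq_of_beq_eq_true (hP P).2.2.2.1]
  have hinj : Function.Injective (fun P => (⟨x P, hcomm P⟩ : centralizer ({s} : Set Spor.M22))) := by
    intro P Q hPQ
    have h1 : x P = x Q := congrArg Subtype.val hPQ
    have h2 : el P.1 = el Q.1 := by rw [← hx, ← hx, h1]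
    exact Subtype.ext (el_inj (hP P).1 (hP Q).1 (hP P).2.2.2.2 (hP Q).2.2.2.2 h2)
  have hc : Nat.card (centralizer ({s} : Set Spor.M22)) ≤ Nat.card {P : ℕ // P ∈ cl.toFinset} := by
    rw [cent_s hs, Nat.card_eq_fintype_card, Fintype.card_coe, List.toFinset_card_of_nodup cl_nodup, cl_length]
  obtain ⟨P, hPz⟩ := (hinj.bijective_of_nat_card_le hc).2 ⟨z, mem_centralizer_singleton_iff.2 hz⟩
  have h1 : x P = z := congrArg Subtype.val hPz
  exact ⟨P.1, List.mem_toFinset.1 P.2, (hP P).1, by rw [← h1, hx]⟩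

/-- **The row `M₂₂`.** -/
theorem qrow_m22 {X : Type u} [Group X] [Finite X] (h : Spor.IsoM22 X) : QRow X := by
  have h22 := H417.RecogMathieu.isM22 h
  have hfin : Finite Spor.M22 := Nat.finite_of_card_ne_zero (by rw [card_M22]; norm_num)
  obtain ⟨e⟩ := h
  obtain ⟨s, hs⟩ := exists_el ok_s (by decide +kernel) (by decide +kernel)
  obtain ⟨t, ht⟩ := exists_el ok_t (by decide +kernel) (by decide +kernel)
  obtain ⟨f, hf⟩ := exists_el ok_f (by decide +kernel) (by decide +kernel)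
  obtain ⟨h, hh⟩ := exists_el ok_h (by decide +kernel) (by decide +kernel)
  have hos : orderOf s = 3 := by rw [← orderOf_inc, hs, os]
  have hot : orderOf t = 3 := by rw [← orderOf_inc, ht, ot]
  have hs3 : s ^ 3 = 1 := by rw [← hos]; exact pow_orderOf_eq_one s
  have ht3 : t ^ 3 = 1 := by rw [← hot]; exact pow_orderOf_eq_one t
  have hst : s * t = t * s := by
    apply inc_eq
    rw [map_mul, map_mul, hs, ht, ← el_pcomp ok_s ok_t, ← el_pcomp ok_t ok_s, Nat.eq_of_beq_eq_true comm_st]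
  have hs1 : s ≠ 1 := by
    intro h0
    rw [h0, orderOf_one] at hos
    omega
  have f1 : t * f * s = f := by
    apply inc_eq
    rw [map_mul, map_mul, hs, ht, hf, ← el_pcomp ok_t ok_f, ← el_pcomp (ok_pcomp ok_t ok_f) ok_s, Nat.eq_of_beq_eq_true rel_f1]
  have f2 : f * t = s * f := by
    apply inc_eq
    rw [map_mul, map_mul, hs, ht, hf, ← el_pcomp ok_f ok_t, ← el_pcomp ok_s ok_f, Nat.eq_of_beq_eq_true rel_f2]
  have h1 : t * s * h * s = h := by
    apply inc_eq
    rw [map_mul, map_mul, map_mul, hs, ht, hh, ← el_pcomp ok_t ok_s, ← el_pcomp (ok_pcomp ok_t ok_s) ok_h,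
      ← el_pcomp (ok_pcomp (ok_pcomp ok_t ok_s) ok_h) ok_s, Nat.eq_of_beq_eq_true rel_h1]
  have h2 : s * h * t = t * h := by
    apply inc_eq
    rw [map_mul, map_mul, map_mul, hs, ht, hh, ← el_pcomp ok_s ok_h, ← el_pcomp (ok_pcomp ok_s ok_h) ok_t,
      ← el_pcomp ok_t ok_h, Nat.eq_of_beq_eq_true rel_h2]
  have hts : t ∉ zpowers s := by
    intro hc
    obtain ⟨n, hn⟩ := mem_powers_iff_mem_zpowers.2 hc
    have hn' : s ^ n = t := hn
    -- `t = s ^ (n % 3)` commutes with `f`-conjugation pattern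
    have h3 : s ^ (n % 3) = t := by rw [← hn', ← hos, pow_mod_orderOf]
    have h4 : f * s ^ (n % 3) = s * f := by rw [h3]; exact f2
    have h5 : f * s * f⁻¹ = t⁻¹ := by
      rw [mul_inv_eq_iff_eq_mul, eq_inv_mul_iff_mul_eq, ← mul_assoc]
      exact f1
    have h6 : f * s ^ (n % 3) * f⁻¹ = (t⁻¹) ^ (n % 3) := by
      rw [← h5, conj_pow]
    have h7 : (t⁻¹) ^ (n % 3) = s := by
      rw [← h6, h4]; group
    have hn3 : n % 3 < 3 := Nat.mod_lt _ (by norm_num)
    interval_cases hk : n % 3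
    · rw [pow_zero] at h7
      exact hs1 h7.symm
    · rw [pow_one] at h3 h7
      have : s * s = 1 := by nth_rewrite 1 [← h7]; rw [← h3]; exact inv_mul_cancel s
      have h8 : s ^ 3 = s := by rw [pow_succ, pow_two, this, one_mul]
      rw [hs3] at h8
      exact hs1 h8.symm
    · have h8 : s ^ 4 = s := by
        rw [show (4 : ℕ) = 3 + 1 from rfl, pow_succ, hs3, one_mul]
      have h9 : t ^ 2 = s := by rw [← h3, ← pow_mul]; exact h8
      rw [inv_pow, h9] at h7
      have : s * s = 1 := by nth_rewrite 1 [← h7]; exact inv_mul_cancel s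
      have h10 : s ^ 3 = s := by rw [pow_succ, pow_two, this, one_mul]
      rw [hs3] at h10
      exact hs1 h10.symm
  have hC : ∀ z : Spor.M22, z * s = s * z → z * t = t * z → z ^ 3 = 1 := by
    intro z hz1 hz2
    obtain ⟨P, hP, hok, hz⟩ := exists_cl hs hz1
    have h3 : el (pcomp P ct) = el (pcomp ct P) := by
      rw [el_pcomp hok ok_t, el_pcomp ok_t hok, ← hz, ← ht, ← map_mul, ← map_mul, hz2]
    have h4 := pcomp_congr' hok ok_t ok_t hok h3
    have h5 := List.all_eq_true.1 cl_cent P hP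
    rw [h4, Nat.beq_refl, Bool.not_true, Bool.false_or] at h5
    have h6 := Nat.eq_of_beq_eq_true h5
    apply inc_eq
    rw [map_pow, map_one, hz, pow_succ, pow_two, mul_assoc, ← el_pcomp hok hok, ← el_pcomp hok (ok_pcomp hok hok), h6]
    have h7 := el_ppow ok_s 0
    rw [pow_zero] at h7
    exact h7
  have h9 : (Nat.card X).factorization 3 = 2 := fact_nine (m := 49280) (by rw [h22.2]) (by norm_num)
  have hpow : ∀ x : X, (e.symm (e x)) = x := fun x => e.symm_apply_apply x
  refine qrow_of (X := X) h9 (s := e.symm s) (t := e.symm t) (f := e.symm f) (h := e.symm h) ?_ ?_ ?_ ?_ ?_ ?_ ?_ ?_ ?_ ?_ ?_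
  · rw [← map_pow, hs3, map_one]
  · rw [← map_pow, ht3, map_one]
  · exact fun h0 => hs1 ((MulEquiv.map_eq_one_iff e.symm).1 h0)
  · rw [← map_mul, hst, map_mul]
  · intro hc
    obtain ⟨n, hn⟩ := mem_zpowers_iff.1 hc
    rw [← map_zpow] at hn
    exact hts (mem_zpowers_iff.2 ⟨n, e.symm.injective hn⟩)
  · rw [← map_mul, ← map_inv, ← map_mul, ← map_inv]
    congr 1
    rw [mul_inv_eq_iff_eq_mul, eq_inv_mul_iff_mul_eq, ← mul_assoc]
    exact f1
  · rw [← map_mul, ← map_inv, ← map_mul]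
    congr 1
    rw [mul_inv_eq_iff_eq_mul]
    exact f2
  · rw [← map_mul, ← map_inv, ← map_mul, ← map_inv, ← map_inv, ← map_mul]
    congr 1
    rw [mul_inv_eq_iff_eq_mul, eq_comm]
    calc s⁻¹ * t⁻¹ * h = s⁻¹ * t⁻¹ * (t * s * h * s) := by rw [h1]
      _ = h * s := by group
  · rw [← map_mul, ← map_inv, ← map_mul, ← map_inv, ← map_mul]
    congr 1
    rw [mul_inv_eq_iff_eq_mul, eq_comm]
    calc s⁻¹ * t * h = s⁻¹ * (t * h) := by group
      _ = s⁻¹ * (s * h * t) := by rw [h2]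
      _ = h * t := by group
  · intro z hz1 hz2
    have a1 : e z * s = s * e z := by
      apply e.symm.injective
      rw [map_mul, map_mul, hpow]
      exact hz1
    have a2 : e z * t = t * e z := by
      apply e.symm.injective
      rw [map_mul, map_mul, hpow]
      exact hz2
    have a3 := hC (e z) a1 a2
    rw [← map_pow] at a3
    exact (MulEquiv.map_eq_one_iff e).1 a3
  · obtain ⟨g, hg⟩ := H417.DegMTwentyTwo.exists_enum h22
    refine ⟨g 11, Or.inr ?_⟩
    rw [hg]
    rfl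

end Cfsg.Agent.H596.T9
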