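import Cfsg.Agent.H596.T9.Mat
import Cfsg.Agent.H277.ClsPsl
import Cfsg.Agent.H424.DegTools
import Cfsg.Agent.H690.LThreeFour

/-!
# `QRow` for `PSL₃(q)`, `q = 4, 7 mod 9` (helper596)
-/

set_option autoImplicit false

open Subgroup Matrix

namespace Cfsg.Agent.H596.T9

open Cfsg Cfsg.Agent.H629.T9

universe u v

/-- a primitive third root of unity -/
theorem exists_w {F : Type*} [Field F] [Fintype F] (h : 3 ∣ Fintype.card F - 1) :
    (3 : F) ≠ 0 ∧ ∃ w c : F, w ^ 2 + w + 1 = 0 ∧ c * (w - w ^ 2) = 1 := by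
  have : Fact (Nat.Prime 3) := ⟨Nat.prime_three⟩
  have h1 : 3 ∣ Nat.card Fˣ := by rwa [Nat.card_units, Nat.card_eq_fintype_card]
  obtain ⟨t, ht⟩ := exists_prime_orderOf_dvd_card' (G := Fˣ) 3 h1
  have ht1 : (t : F) ≠ 1 := by
    intro h2
    have : t = 1 := Units.ext h2
    rw [this, orderOf_one] at ht
    omega
  have ht3 : (t : F) ^ 3 = 1 := by
    rw [← Units.val_pow_eq_pow_val, ← ht, pow_orderOf_eq_one, Units.val_one]
  have hw : (t : F) ^ 2 + t + 1 = 0 := by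
    have h2 : ((t : F) - 1) * ((t : F) ^ 2 + t + 1) = 0 := by linear_combination ht3
    exact (mul_eq_zero.1 h2).resolve_left (sub_ne_zero.2 ht1)
  have h3 : (3 : F) ≠ 0 := by
    intro h3
    apply ht1
    have h4 : ((t : F) - 1) ^ 2 = 0 := by linear_combination hw - (t : F) * h3
    exact sub_eq_zero.1 (pow_eq_zero_iff two_ne_zero |>.1 h4)
  refine ⟨h3, t, ((t : F) - t ^ 2)⁻¹, hw, inv_mul_cancel₀ ?_⟩
  intro h4
  have h5 : (t : F) * (1 - t) = 0 := by linear_combination h4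
  rcases mul_eq_zero.1 h5 with h6 | h6
  · exact t.ne_zero h6
  · exact ht1 (sub_eq_zero.1 h6).symm

theorem fact_nine {n m : ℕ} (h : n = 9 * m) (hm : ¬ 3 ∣ m) : n.factorization 3 = 2 := by
  have hm0 : m ≠ 0 := by rintro rfl; exact hm (dvd_zero 3)
  have h3 : Nat.Prime 3 := Nat.prime_three
  rw [h, Nat.factorization_mul (by norm_num) hm0, Finsupp.add_apply, Nat.factorization_eq_zero_of_not_dvd hm,
    show (9 : ℕ) = 3 ^ 2 from rfl, h3.factorization_pow]
  simp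

theorem psl_num {q N : ℕ} (hq : q % 9 = 4 ∨ q % 9 = 7) (h : 3 * N = q ^ 3 * ((q ^ 2 - 1) * (q ^ 3 - 1))) :
    N.factorization 3 = 2 := by
  have h3 : Nat.Prime 3 := Nat.prime_three
  rcases hq with hq | hq
  · obtain ⟨k, rfl⟩ : ∃ k, q = 9 * k + 4 := ⟨q / 9, by omega⟩
    have e1 : (9 * k + 4) ^ 2 - 1 = 3 * (3 * (9 * k ^ 2 + 8 * k + 1) + 2) := by
      have : (9 * k + 4) ^ 2 = 3 * (3 * (9 * k ^ 2 + 8 * k + 1) + 2) + 1 := by ring
      omega
    have e2 : (9 * k + 4) ^ 3 - 1 = 9 * (3 * (27 * k ^ 3 + 36 * k ^ 2 + 16 * k + 2) + 1) := by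
      have : (9 * k + 4) ^ 3 = 9 * (3 * (27 * k ^ 3 + 36 * k ^ 2 + 16 * k + 2) + 1) + 1 := by ring
      omega
    rw [e1, e2] at h
    refine fact_nine (m := (9 * k + 4) ^ 3 * ((3 * (9 * k ^ 2 + 8 * k + 1) + 2) *
      (3 * (27 * k ^ 3 + 36 * k ^ 2 + 16 * k + 2) + 1))) ?_ ?_
    · have : 3 * N = 3 * (9 * ((9 * k + 4) ^ 3 * ((3 * (9 * k ^ 2 + 8 * k + 1) + 2) *
        (3 * (27 * k ^ 3 + 36 * k ^ 2 + 16 * k + 2) + 1)))) := by rw [h]; ring
      exact Nat.eq_of_mul_eq_mul_left (by norm_num) this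
    · intro hd
      rcases (h3.dvd_mul).1 hd with hd | hd
      · have := h3.dvd_of_dvd_pow hd
        omega
      · rcases (h3.dvd_mul).1 hd with hd | hd <;> omega
  · obtain ⟨k, rfl⟩ : ∃ k, q = 9 * k + 7 := ⟨q / 9, by omega⟩
    have e1 : (9 * k + 7) ^ 2 - 1 = 3 * (3 * (9 * k ^ 2 + 14 * k + 5) + 1) := by
      have : (9 * k + 7) ^ 2 = 3 * (3 * (9 * k ^ 2 + 14 * k + 5) + 1) + 1 := by ring
      omega
    have e2 : (9 * k + 7) ^ 3 - 1 = 9 * (3 * (27 * k ^ 3 + 63 * k ^ 2 + 49 * k + 12) + 2) := by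
      have : (9 * k + 7) ^ 3 = 9 * (3 * (27 * k ^ 3 + 63 * k ^ 2 + 49 * k + 12) + 2) + 1 := by ring
      omega
    rw [e1, e2] at h
    refine fact_nine (m := (9 * k + 7) ^ 3 * ((3 * (9 * k ^ 2 + 14 * k + 5) + 1) *
      (3 * (27 * k ^ 3 + 63 * k ^ 2 + 49 * k + 12) + 2))) ?_ ?_
    · have : 3 * N = 3 * (9 * ((9 * k + 7) ^ 3 * ((3 * (9 * k ^ 2 + 14 * k + 5) + 1) *
        (3 * (27 * k ^ 3 + 63 * k ^ 2 + 49 * k + 12) + 2)))) := by rw [h]; ring
      exact Nat.eq_of_mul_eq_mul_left (by norm_num) this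
    · intro hd
      rcases (h3.dvd_mul).1 hd with hd | hd
      · have := h3.dvd_of_dvd_pow hd
        omega
      · rcases (h3.dvd_mul).1 hd with hd | hd <;> omega

/-- **The row `PSL₃(q)`.** -/
theorem qrow_psl {F : Type v} [Field F] [Fintype F] (hq : Fintype.card F % 9 = 4 ∨ Fintype.card F % 9 = 7)
    {X : Type u} [Group X] [Finite X] (e : X ≃* ProjectiveSpecialLinearGroup (Fin 3) F) : QRow X := by
  have hd : 3 ∣ Fintype.card F - 1 := by omega
  obtain ⟨h3, w, c, hw, hc⟩ := exists_w hd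
  have hcard := H277.ClsPsl.card_psl (F := F) rfl (n := 3) (by norm_num)
  have hg : Nat.gcd 3 (Fintype.card F - 1) = 3 := Nat.gcd_eq_left hd
  rw [hg, Finset.prod_range_succ, Finset.prod_range_one] at hcard
  have h9 := psl_num hq hcard
  rw [← Nat.card_congr e.toEquiv] at h9
  refine qrow_mat (slToMat 3 F) (fun k => k.2) (e.symm.toMonoidHom.comp (QuotientGroup.mk' _))
    (e.symm.surjective.comp (QuotientGroup.mk'_surjective _)) (fun k => ?_)
    hw h3 ⟨⟨mA w, det_mA hw⟩, rfl⟩ ⟨⟨mB F, det_mB⟩, rfl⟩ ⟨⟨mF w c, det_mF hw hc⟩, rfl⟩ ⟨⟨mH w c, det_mH hw hc⟩, rfl⟩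
    h9 ?_
  · have h0 : (e.symm.toMonoidHom.comp (QuotientGroup.mk' (center (SpecialLinearGroup (Fin 3) F)))) k = 1 ↔
        (QuotientGroup.mk' (center (SpecialLinearGroup (Fin 3) F))) k = 1 := by
      rw [MonoidHom.comp_apply]
      exact MulEquiv.map_eq_one_iff e.symm
    rw [h0, QuotientGroup.mk'_apply, QuotientGroup.eq_one_iff, Matrix.SpecialLinearGroup.mem_center_iff]
    constructor
    · rintro ⟨r, -, hr⟩
      refine ⟨r, ?_⟩
      change (k : Matrix (Fin 3) (Fin 3) F) = _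
      rw [← hr, scalar_apply, smul_one_eq_diagonal]
    · rintro ⟨r, hr⟩
      have hr' : (k : Matrix (Fin 3) (Fin 3) F) = r • 1 := hr
      refine ⟨r, ?_, ?_⟩
      · have h4 := congrArg Matrix.det hr'
        rw [Matrix.SpecialLinearGroup.det_coe, det_smul, det_one, mul_one] at h4
        exact h4.symm
      · rw [hr', scalar_apply, smul_one_eq_diagonal]
  · have h4 : Nat.card (Projectivization F (Fin 3 → F)) = (Fintype.card F ^ 2 + Fintype.card F) + 1 := by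
      have h5 := Projectivization.card_of_finrank F (Fin 3 → F) (n := 3) (by simp)
      rw [h5, Nat.card_eq_fintype_card, Finset.sum_range_succ, Finset.sum_range_succ, Finset.sum_range_one]
      ring
    have : Finite (Projectivization F (Fin 3 → F)) := Nat.finite_of_card_ne_zero (by omega)
    have hpos : 1 < Fintype.card F := Fintype.one_lt_card
    have h6 := H424.DegTools.of_two_transitive (G := ProjectiveSpecialLinearGroup (Fin 3) F)
      (Projectivization F (Fin 3 → F)) (H690.LThreeFour.two_trans 3 F) h4 (by nlinarith)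
    rw [← H424.DegTools.charDegrees_congr e] at h6
    obtain ⟨θ, hθ⟩ := h6
    refine ⟨θ, Or.inl ?_⟩
    rw [hθ]
    rcases hq with h | h <;> simp [Nat.add_mod, Nat.pow_mod, h]

end Cfsg.Agent.H596.T9
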